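import Mathlib
import Cfsg.Agent.RP.Num

/-! Arithmetic of the element orders of the direct square of a small Ree group. -/

set_option autoImplicit false

namespace Cfsg.Agent.RR

open RP

/-- the five colours -/
def DD (m : ℕ) : Fin 5 → ℕ := ![D m 0, D m 1, D m 2, D m 3, 9]

def YY (m : ℕ) (i : Fin 5) : ℕ := DD m i / (DD m i).gcd 2

def Cl (m : ℕ) (i : Fin 5) (s : ℕ) : Prop := s.Prime ∧ s ≠ 2 ∧ s ∣ DD m i

def O1 (m d : ℕ) : Prop := d ∣ 6 ∨ ∃ i, d ∣ DD m i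

def O2 (m o : ℕ) : Prop := ∃ a b, O1 m a ∧ O1 m b ∧ o ∣ a.lcm b

variable {m : ℕ}

theorem DD_cast (t : Fin 4) : DD m t.castSucc = D m t := by fin_cases t <;> rfl

theorem cases5 (i : Fin 5) : i = 4 ∨ ∃ t : Fin 4, i = t.castSucc := by revert i; decide

theorem cop5 {d : ℕ} {i j : Fin 5} (h : i ≠ j) (h1 : d ∣ DD m i) (h2 : d ∣ DD m j) : d ∣ 2 := by
  have k : ∀ t, d ∣ D m t → d ∣ 9 → d ∣ 2 := fun t h1 h2 => by
    rw [Nat.Coprime.eq_one_of_dvd (Nat.Coprime.pow_right 2 ((Nat.Prime.coprime_iff_not_dvd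
      Nat.prime_three).2 fun h => not_three m t (h.trans h1)).symm) h2]
    exact one_dvd _
  rcases cases5 i with rfl | ⟨t, rfl⟩ <;> rcases cases5 j with rfl | ⟨u, rfl⟩
  exacts [absurd rfl h, k u (DD_cast u ▸ h2) h1, k t (DD_cast t ▸ h1) h2,
    cop (fun e => h (congrArg _ e)) (DD_cast t ▸ h1) (DD_cast u ▸ h2)]

theorem not_four5 (i : Fin 5) : ¬ 4 ∣ DD m i := by
  rcases cases5 i with rfl | ⟨t, rfl⟩
  exacts [(by decide : ¬ 4 ∣ 9), DD_cast t ▸ not_four m t]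

theorem cl3 : Cl m 4 3 := ⟨Nat.prime_three, by norm_num, (by decide : 3 ∣ 9)⟩

namespace Cl

variable {i j : Fin 5} {s r : ℕ} (h : Cl m i s)
include h

theorem eq (h' : s ∣ DD m j) : i = j := by_contra fun e =>
  h.2.1 ((Nat.prime_dvd_prime_iff_eq h.1 Nat.prime_two).1 (cop5 e h.2.2 h'))

theorem ne (h' : Cl m j r) (e : i ≠ j) : s ≠ r := fun f => e (h.eq (f ▸ h'.2.2))

theorem ne_three (e : i ≠ 4) : s ≠ 3 := h.ne cl3 e

theorem eq_three (e : i = 4) : s = 3 := by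
  subst e
  exact (Nat.prime_dvd_prime_iff_eq h.1 Nat.prime_three).1 (h.1.dvd_of_dvd_pow (n := 2) h.2.2)

theorem of_O1 {a : ℕ} (ha : O1 m a) (hd : s ∣ a) : a ∣ DD m i ∨ i = 4 ∧ a ∣ 6 := by
  rcases ha with h1 | ⟨j, h1⟩
  · refine Or.inr ⟨h.eq ?_, h1⟩
    exact (((Nat.coprime_primes h.1 Nat.prime_two).2 h.2.1).dvd_of_dvd_mul_left
      (hd.trans h1 : s ∣ 2 * 3)).trans cl3.2.2
  · exact Or.inl (h.eq (hd.trans h1) ▸ h1)

theorem eq_of_O1 (h' : Cl m j r) {a : ℕ} (ha : O1 m a) (h1 : s ∣ a) (h2 : r ∣ a) : i = j := by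
  rcases h.of_O1 ha h1 with e | ⟨e, -⟩
  · exact (h'.eq (h2.trans e)).symm
  rcases h'.of_O1 ha h2 with f | ⟨f, -⟩
  exacts [h.eq (h1.trans f), e.trans f.symm]

end Cl

theorem per {d : ℕ} (h : d ∣ 3 ^ 18 - 1) (n : ℕ) : 3 ^ n % d = 3 ^ (n % 18) % d := by
  conv_lhs => rw [← Nat.mod_add_div n 18, pow_add, pow_mul]
  exact ((Nat.ModEq.refl _).mul (((Nat.modEq_iff_dvd' (by norm_num)).2 h).symm.pow _)).trans
    (by simp [Nat.ModEq])

theorem relY (m : ℕ) : ∃ s Q : ℕ, s = 3 ^ m ∧ Q = s * s ∧ 3 ^ (2 * m + 1) = 3 * Q ∧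
    D m 3 = 3 * Q + 3 * s + 1 ∧ 2 * YY m 0 + 1 = 3 * Q ∧ 4 * YY m 1 = 3 * Q + 1 ∧
    YY m 2 + 3 * s = 3 * Q + 1 ∧ YY m 3 = 3 * Q + 3 * s + 1 ∧ DD m 0 = 2 * YY m 0 ∧
    DD m 1 = 2 * YY m 1 ∧ DD m 2 = YY m 2 ∧ DD m 3 = YY m 3 := by
  obtain ⟨s, Q, hs, hQ, hq, h1, h2, e0, e1, e2, e3⟩ := rel m
  have k : ∀ a, a % 2 = 0 → a.gcd 2 = 2 := fun a h => Nat.gcd_eq_right (Nat.dvd_of_mod_eq_zero h)
  have k' : ∀ a, a % 2 = 1 → a.gcd 2 = 1 := fun a h => Nat.coprime_two_right.2 (Nat.odd_iff.2 h)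
  refine ⟨s, Q, hs, hQ, hq, e3, ?_⟩
  simp only [YY, DD, Matrix.cons_val]
  rw [k (D m 0) (by omega), k (D m 1) (by omega), k' (D m 2) (by omega), k' (D m 3) (by omega)]
  omega

theorem YY_mul (i : Fin 5) : YY m i * (DD m i).gcd 2 = DD m i :=
  Nat.div_mul_cancel (Nat.gcd_dvd_left _ _)

theorem YY_dvd (i : Fin 5) : YY m i ∣ DD m i := Dvd.intro _ (YY_mul i)

theorem cl_of_dvd {i : Fin 5} {s : ℕ} (hs : s.Prime) (hd : s ∣ YY m i) : Cl m i s :=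
  ⟨hs, fun e => not_four5 i (by
    subst e
    exact YY_mul (m := m) i ▸ mul_dvd_mul hd (Nat.dvd_gcd (hd.trans (YY_dvd i)) dvd_rfl)),
    hd.trans (YY_dvd i)⟩

theorem Cl.dvd_YY {i : Fin 5} {s : ℕ} (h : Cl m i s) : s ∣ YY m i :=
  (((Nat.coprime_primes h.1 Nat.prime_two).2 h.2.1).coprime_dvd_right
    (Nat.gcd_dvd_right _ _)).dvd_of_dvd_mul_right ((YY_mul i).symm ▸ h.2.2)

theorem YY_cop2 (i : Fin 5) : (YY m i).Coprime 2 :=
  Nat.coprime_of_dvd fun _ hp h1 h2 =>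
    (cl_of_dvd hp h1).2.1 ((Nat.prime_dvd_prime_iff_eq hp Nat.prime_two).1 h2)

theorem YY_cop {i j : Fin 5} (h : i ≠ j) : (YY m i).Coprime (YY m j) :=
  Nat.coprime_of_dvd fun _ hp h1 h2 => h ((cl_of_dvd hp h1).eq (h2.trans (YY_dvd j)))

theorem lin_lt {a : ℕ} (h : 5 ≤ a) : 32 * a < 3 ^ a := by
  induction a, h using Nat.le_induction with
  | base => norm_num
  | succ a _ ih => rw [pow_succ]; omega

theorem YY_ge (hm : 1 ≤ m) {i : Fin 5} (hi : i ≠ 4) : 3 ^ (2 * m + 1) < 4 * YY m i ∧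
    D m 3 ≤ 2 * 3 ^ (2 * m + 1) ∧ 27 ≤ 3 ^ (2 * m + 1) := by
  obtain ⟨s, Q, hs, hQ, hq, e, e0, e1, e2, e3, -⟩ := relY m
  have h3 : 3 ≤ s := hs ▸ Nat.pow_le_pow_right three_pos hm
  have h4 : 3 * s ≤ Q := hQ ▸ Nat.mul_le_mul_right s h3
  fin_cases i <;> simp only [Fin.zero_eta, Fin.mk_one, Fin.reduceFinMk] at hi ⊢ <;> omega

theorem lt_YY (hm : 1 ≤ m) {i : Fin 5} (hi : i ≠ 4) : 2 * m + 1 < YY m i := by
  have h := YY_ge hm hi
  obtain rfl | h2 : m = 1 ∨ 2 ≤ m := by omega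
  · omega
  · have := lin_lt (show 5 ≤ 2 * m + 1 by omega)
    omega

theorem exists_cl (hm : 1 ≤ m) (i : Fin 5) : ∃ s, Cl m i s := by
  by_cases hi : i = 4
  · exact ⟨3, hi ▸ cl3⟩
  obtain ⟨s, h1, h2⟩ := Nat.exists_prime_and_dvd (show YY m i ≠ 1 by have := lt_YY hm hi; omega)
  exact ⟨s, cl_of_dvd h1 h2⟩

theorem exists_cl_dvd (hm : 1 ≤ m) {i : Fin 5} (hi : i ≠ 4) {o : ℕ}
    (h : YY m i ∣ 2 * (2 * m + 1) * o) : ∃ s, Cl m i s ∧ s ∣ o := by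
  by_contra! h1
  exact (lt_YY hm hi).not_ge (Nat.le_of_dvd (by omega) ((YY_cop2 i).dvd_of_dvd_mul_left
    ((Nat.coprime_of_dvd fun p hp h2 => h1 p (cl_of_dvd hp h2)).dvd_of_dvd_mul_right h)))

theorem not_pair (hm : 1 ≤ m) {i j : Fin 5} (hi : i ≠ 4) (hj : j ≠ 4) {o : ℕ}
    (h0 : 0 < o) (ho : o ≤ D m 3) : ¬ YY m i * YY m j ∣ 2 * (2 * m + 1) * o := fun h => by
  rw [mul_assoc] at h
  replace h := ((YY_cop2 i).mul_left (YY_cop2 j)).dvd_of_dvd_mul_left h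
  have h1 := YY_ge hm hi
  have h2 := YY_ge hm hj
  obtain rfl | h3 : m = 1 ∨ 2 ≤ m := by omega
  · have := Nat.le_of_dvd h0 (((YY_cop hi).mul_left (YY_cop hj)).coprime_dvd_right
      cl3.dvd_YY |>.dvd_of_dvd_mul_left h)
    nlinarith [Nat.mul_le_mul (show 7 ≤ YY 1 i by omega) (show 7 ≤ YY 1 j by omega),
      show D 1 3 = 37 from rfl]
  have h4 := lin_lt (show 5 ≤ 2 * m + 1 by omega)
  have h5 := (Nat.le_of_dvd (by positivity) h).trans (Nat.mul_le_mul_left _ (ho.trans h1.2.1))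
  nlinarith [Nat.mul_le_mul h1.1.le h2.1.le]

theorem eq_of_dvd {m' : ℕ} (hm : 1 ≤ m') (hd : 2 * m' + 1 ∣ 2 * m + 1) {i : Fin 5} (hi : i ≠ 4)
    {o : ℕ} (h0 : 0 < o) (ho : o ≤ D m' 3) (h : YY m i ∣ 2 * (2 * m + 1) * o) : m' = m := by
  by_contra hne
  obtain ⟨c, hc⟩ := hd
  have h3 : 3 ≤ c := by
    by_contra h3
    interval_cases c <;> omega
  have h4 : (2 * m' + 1) * 3 ≤ 2 * m + 1 := hc ▸ Nat.mul_le_mul_left _ h3
  rw [mul_assoc] at h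
  have h5 := (Nat.le_of_dvd (by positivity) ((YY_cop2 i).dvd_of_dvd_mul_left h)).trans
    (Nat.mul_le_mul_left _ (ho.trans (YY_ge hm (i := 0) (by decide)).2.1))
  have h6 := (YY_ge (show 1 ≤ m by omega) hi).1
  obtain ⟨a, ha⟩ : ∃ a, 2 * m + 1 = 2 * m' + 1 + a := ⟨2 * m - 2 * m', by omega⟩
  have h7 := lin_lt (show 5 ≤ a by omega)
  rw [ha, pow_add] at h6
  have : 0 < 3 ^ (2 * m' + 1) := by positivity
  nlinarith [Nat.mul_le_mul_left (3 ^ (2 * m' + 1)) (show 8 * (2 * m + 1) ≤ 3 ^ a by omega)]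

theorem sq_lt {w : ℕ} (h : 7 ≤ w) : 128 * w ^ 2 < 7 ^ w := by
  induction w, h using Nat.le_induction with
  | base => norm_num
  | succ a _ ih => rw [pow_succ 7]; nlinarith

theorem big_pow (hm : 1 ≤ m) {i : Fin 5} (hi : i ≠ 4) : 2 * (D m 3 * D m 3) < 7 ^ YY m i := by
  obtain ⟨h1, h2, h3⟩ := YY_ge hm hi
  have := sq_lt (show 7 ≤ YY m i by omega)
  nlinarith [Nat.mul_le_mul (show D m 3 ≤ 8 * YY m i by omega) (show D m 3 ≤ 8 * YY m i by omega)]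

theorem O1.le (hm : 1 ≤ m) {a : ℕ} (h : O1 m a) : 0 < a ∧ a ≤ D m 3 := by
  obtain ⟨s, Q, hs, hQ, hq, e, e0, e1, e2, e3, f0, f1, f2, f3⟩ := relY m
  have h3 := (YY_ge hm (i := 0) (by decide)).2.2
  have k : ∀ b, 0 < b → b ≤ D m 3 → a ∣ b → 0 < a ∧ a ≤ D m 3 := fun b h1 h2 h =>
    ⟨Nat.pos_of_dvd_of_pos h h1, (Nat.le_of_dvd h1 h).trans h2⟩
  have h4 := (YY_ge hm (i := 2) (by decide)).1
  rcases h with h | ⟨i, h⟩
  · exact k 6 (by norm_num) (by omega) h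
  have f4 : DD m 4 = 9 := rfl
  refine k _ ?_ ?_ h <;> fin_cases i <;> simp only [Fin.zero_eta, Fin.mk_one, Fin.reduceFinMk] <;> omega

theorem cl7 {i : Fin 5} (h : Cl m i 7) : i ≠ 0 ∧ i ≠ 4 ∧ (i = 1 → Cl m 0 13) := by
  refine ⟨fun e => ?_, fun e => absurd (h.eq_three e) (by norm_num), fun e =>
    ⟨by norm_num, by norm_num, ?_⟩⟩ <;> subst e
  · exact absurd (dvd_two (b := 3) ⟨m, rfl⟩ h.2.2 (by norm_num)) (by norm_num)
  obtain ⟨s, Q, -, -, hq, -, -, e0, e1, -⟩ := rel m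
  have h1 : 7 ∣ D m 1 := h.2.2
  have h2 := per (d := 7) (by norm_num) (2 * m + 1)
  have h3 := per (d := 13) (by norm_num) (2 * m + 1)
  have := (by decide : ∀ i < 18, 3 ^ i % 7 = 6 → 3 ^ i % 13 = 1) _ (Nat.mod_lt (2 * m + 1) (by norm_num))
  change 13 ∣ D m 0
  omega

theorem cl13 {i : Fin 5} (h : Cl m i 13) : i = 0 ∧ Cl m 1 7 := by
  obtain rfl : i = 0 := by
    rcases cases5 i with rfl | ⟨t, rfl⟩
    · exact absurd (h.eq_three rfl) (by norm_num)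
    by_contra e
    exact absurd (dvd_two (a := 3) (by decide) (by norm_num) ((DD_cast t ▸ h.2.2).trans
      (D_dvd_cube m fun f => e (f ▸ rfl)))) (by norm_num)
  refine ⟨rfl, by norm_num, by norm_num, ?_⟩
  obtain ⟨s, Q, -, -, hq, -, -, e0, e1, -⟩ := rel m
  have h1 : 13 ∣ D m 0 := h.2.2
  have h2 := per (d := 7) (by norm_num) (2 * m + 1)
  have h3 := per (d := 13) (by norm_num) (2 * m + 1)
  have := (by decide : ∀ i < 18, i % 2 = 1 → 3 ^ i % 13 = 1 → 3 ^ i % 7 = 6) _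
    (Nat.mod_lt (2 * m + 1) (by norm_num))
  change 7 ∣ D m 1
  omega

theorem cl37 {i j : Fin 5} (h : Cl m i 19) (h' : Cl m j 37) (ij : i ≠ j) :
    (i = 2 ∨ i = 3) ∧ (j = 2 ∨ j = 3) := by
  obtain ⟨s, Q, -, -, hq, -, -, e0, e1, -⟩ := rel m
  have h2 := per (d := 19) (by norm_num) (2 * m + 1)
  have h3 := per (d := 37) (by norm_num) (2 * m + 1)
  have := (by decide : ∀ i < 18, i % 2 = 1 → 3 ^ i % 19 ≠ 1 ∧ 3 ^ i % 37 ≠ 1 ∧
    (3 ^ i % 19 = 18 ↔ 3 ^ i % 37 = 36)) _ (Nat.mod_lt (2 * m + 1) (by norm_num)) (by omega)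
  have a0 : i ≠ 0 := fun e => by have : 19 ∣ D m 0 := (e ▸ h).2.2; omega
  have b0 : j ≠ 0 := fun e => by have : 37 ∣ D m 0 := (e ▸ h').2.2; omega
  have a1 : i ≠ 1 := fun e => by
    have : 19 ∣ D m 1 := (e ▸ h).2.2
    exact ij (e.trans (h'.eq (j := 1) (show 37 ∣ D m 1 by omega)).symm)
  have b1 : j ≠ 1 := fun e => by
    have : 37 ∣ D m 1 := (e ▸ h').2.2
    exact ij ((h.eq (j := 1) (show 19 ∣ D m 1 by omega)).trans e.symm)
  have a4 : i ≠ 4 := fun e => absurd (h.eq_three e) (by norm_num)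
  have b4 : j ≠ 4 := fun e => absurd (h'.eq_three e) (by norm_num)
  omega

theorem Cl.seven_le {i : Fin 5} {s : ℕ} (h : Cl m i s) (hi : i ≠ 4) : 7 ≤ s := by
  have h1 := h.1.two_le
  have h2 := h.2.1
  have h3 := h.ne_three hi
  have h5 : s ≠ 5 := fun e => by
    obtain ⟨t, rfl⟩ := (cases5 i).resolve_left hi
    have := gp ((e ▸ DD_cast t ▸ h.2.2).trans (D_dvd m t)) (show 5 ∣ 3 ^ 4 - 1 by norm_num)
    rw [show 6 * (2 * m + 1) = 2 * (3 * (2 * m + 1)) by ring, show 4 = 2 * 2 from rfl,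
      Nat.gcd_mul_left, Nat.coprime_two_right.2 ⟨3 * m + 1, by ring⟩] at this
    omega
  have := h.1
  by_contra h4
  interval_cases s <;> simp_all (config := {decide := true})

namespace O2

variable {o : ℕ} (h : O2 m o)
include h

theorem of_dvd {d : ℕ} (hd : d ∣ o) : O2 m d :=
  let ⟨a, b, h1, h2, h3⟩ := h; ⟨a, b, h1, h2, hd.trans h3⟩

theorem slot : ∃ a b, O1 m a ∧ O1 m b ∧ ∀ p k : ℕ, p.Prime → p ^ k ∣ o → p ^ k ∣ a ∨ p ^ k ∣ b := by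
  obtain ⟨a, b, h1, h2, h3⟩ := h
  have k : ∀ {a}, O1 m a → a ≠ 0 := fun h e => by
    subst e
    rcases h with h | ⟨i, h⟩
    exacts [by omega, not_four5 i ((dvd_zero 4).trans h)]
  refine ⟨a, b, h1, h2, fun p n hp hd => ?_⟩
  have := hd.trans h3
  rwa [hp.pow_dvd_iff_le_factorization (Nat.lcm_ne_zero (k h1) (k h2)), Nat.factorization_lcm (k h1)
    (k h2), Finsupp.sup_apply, le_sup_iff, ← hp.pow_dvd_iff_le_factorization (k h1),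
    ← hp.pow_dvd_iff_le_factorization (k h2)] at this

theorem one {p k : ℕ} (hp : p.Prime) (hd : p ^ k ∣ o) : p ^ k ∣ 6 ∨ ∃ i, p ^ k ∣ DD m i := by
  obtain ⟨a, b, h1, h2, h3⟩ := h.slot
  exact (h3 p k hp hd).elim (fun e => h1.imp e.trans (.imp fun _ => e.trans))
    fun e => h2.imp e.trans (.imp fun _ => e.trans)

theorem not_4 : ¬ 4 ∣ o := fun hd => by
  rcases h.one (k := 2) Nat.prime_two hd with h1 | ⟨i, h1⟩
  exacts [by omega, not_four5 i h1]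

theorem not_27 : ¬ 27 ∣ o := fun hd => by
  rcases h.one (k := 3) Nat.prime_three hd with h1 | ⟨i, h1⟩
  · omega
  obtain rfl := cl3.eq (Dvd.dvd.trans (by norm_num) h1)
  exact absurd h1 (by decide : ¬ 3 ^ 3 ∣ 9)

theorem cl {p : ℕ} (hp : p.Prime) (h2 : p ≠ 2) (hd : p ∣ o) : ∃ i, Cl m i p := by
  rcases h.one (k := 1) hp (by rwa [pow_one]) with h1 | ⟨i, h1⟩ <;> rw [pow_one] at h1
  exacts [⟨4, hp, h2, (((Nat.coprime_primes hp Nat.prime_two).2 h2).dvd_of_dvd_mul_left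
    (h1 : p ∣ 2 * 3)).trans cl3.2.2⟩, ⟨i, hp, h2, h1⟩]

theorem slot1 : ∃ a b, O1 m a ∧ O1 m b ∧ (9 ∣ o → 9 ∣ a ∨ 9 ∣ b) ∧
    ∀ p : ℕ, p.Prime → p ∣ o → p ∣ a ∨ p ∣ b :=
  let ⟨a, b, h1, h2, h3⟩ := h.slot
  ⟨a, b, h1, h2, h3 3 2 Nat.prime_three, fun p hp hd => by simpa using h3 p 1 hp (by simpa)⟩

theorem tri {i j k : Fin 5} {s r w : ℕ} (hs : Cl m i s) (hr : Cl m j r) (hw : Cl m k w) (ij : i ≠ j)
    (jk : j ≠ k) (ik : i ≠ k) (h1 : s ∣ o) (h2 : r ∣ o) (h3 : w ∣ o) : False := by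
  obtain ⟨a, b, ha, hb, -, e⟩ := h.slot1
  rcases e s hs.1 h1 with x | x <;> rcases e r hr.1 h2 with y | y <;> rcases e w hw.1 h3 with z | z
  exacts [ij (hs.eq_of_O1 hr ha x y), ij (hs.eq_of_O1 hr ha x y), ik (hs.eq_of_O1 hw ha x z),
    jk (hr.eq_of_O1 hw hb y z), jk (hr.eq_of_O1 hw ha y z), ik (hs.eq_of_O1 hw hb x z),
    ij (hs.eq_of_O1 hr hb x y), ij (hs.eq_of_O1 hr hb x y)]

omit h in
theorem odd_of {i : Fin 5} {s a : ℕ} (hs : Cl m i s) (hi : i = 2 ∨ i = 3) (ha : O1 m a) (h1 : s ∣ a) :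
    ¬ 2 ∣ a ∧ ¬ 3 ∣ a := by
  have h2 := (hs.of_O1 ha h1).resolve_right (by omega)
  obtain ⟨s, Q, -, -, -, -, -, -, -, -, -, -, f2, f3⟩ := relY m
  exact ⟨fun e => Nat.prime_two.coprime_iff_not_dvd.1 (YY_cop2 (m := m) i).symm (by
      rcases hi with rfl | rfl; exacts [f2 ▸ e.trans h2, f3 ▸ e.trans h2]),
    fun e => by have := cl3.eq (e.trans h2); omega⟩

theorem not_18 {i : Fin 5} {s : ℕ} (hs : Cl m i s) (hi : i = 2 ∨ i = 3) (h1 : s ∣ o) : ¬ 18 ∣ o :=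
  fun hd => by
  obtain ⟨a, b, ha, hb, e9, e⟩ := h.slot1
  have k : ∀ {a b}, O1 m a → O1 m b → s ∣ a → (9 ∣ a ∨ 9 ∣ b) → (2 ∣ a ∨ 2 ∣ b) → False :=
    fun {a b} ha hb x y z => by
      have := odd_of hs hi ha x
      rcases cl3.of_O1 hb (by omega) with e | ⟨-, e⟩
      · have := Nat.le_of_dvd (by decide : 0 < 9) e
        have : ¬ 2 ∣ b := fun f => absurd (f.trans e) (by decide : ¬ 2 ∣ 9)
        omega
      · have := Nat.le_of_dvd (by norm_num) e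
        have := Nat.pos_of_dvd_of_pos e (by norm_num)
        omega
  have y := e9 (Dvd.dvd.trans (by norm_num) hd)
  have z := e 2 Nat.prime_two (Dvd.dvd.trans (by norm_num) hd)
  exact (e s hs.1 h1).elim (fun x => k ha hb x y z) fun x => k hb ha x y.symm z.symm

theorem not_2 {s r : ℕ} (hs : Cl m 2 s) (hr : Cl m 3 r) (h1 : s ∣ o) (h2 : r ∣ o) : ¬ 2 ∣ o :=
  fun hd => by
  obtain ⟨a, b, ha, hb, -, e⟩ := h.slot1
  have z := e 2 Nat.prime_two hd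
  rcases e s hs.1 h1 with x | x <;> rcases e r hr.1 h2 with y | y
  exacts [absurd (hs.eq_of_O1 hr ha x y) (by decide),
    z.elim (odd_of hs (.inl rfl) ha x).1 (odd_of hr (.inr rfl) hb y).1,
    z.elim (odd_of hr (.inr rfl) ha y).1 (odd_of hs (.inl rfl) hb x).1,
    absurd (hs.eq_of_O1 hr hb x y) (by decide)]

theorem le (hm : 1 ≤ m) : o ≤ D m 3 * D m 3 :=
  let ⟨_, _, ha, hb, e⟩ := h
  (Nat.le_of_dvd (mul_pos (ha.le hm).1 (hb.le hm).1) (e.trans (Nat.lcm_dvd_mul _ _))).trans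
    (Nat.mul_le_mul (ha.le hm).2 (hb.le hm).2)

theorem dvd_18 (h1 : ∀ i s, Cl m i s → s ∣ o → i = 4) : o ∣ 18 :=
  (Nat.dvd_iff_prime_pow_dvd_dvd _ _).2 fun p k hp hd => by
    rcases k.eq_zero_or_pos with rfl | hk
    · simp
    have h2 := (dvd_pow_self p hk.ne').trans hd
    by_cases e : p = 2
    · subst e
      exact (pow_dvd_pow 2 (not_lt.1 fun h3 => h.not_4 ((pow_dvd_pow 2 h3).trans hd) : k ≤ 1)).trans
        (by norm_num)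
    obtain ⟨i, hi⟩ := h.cl hp e h2
    obtain rfl := hi.eq_three (h1 i p hi h2)
    exact (pow_dvd_pow 3 (not_lt.1 fun h3 => h.not_27 ((pow_dvd_pow 3 h3).trans hd) : k ≤ 2)).trans
      (by norm_num)

end O2

theorem exp_dvd {m' : ℕ} (h : O2 m (YY m' 0)) : 2 * m' + 1 ∣ 2 * m + 1 := by
  have h1 : YY m' 0 ∣ 3 ^ (2 * m + 1) - 1 := (Nat.dvd_iff_prime_pow_dvd_dvd _ _).2 fun p k hp hd => by
    rcases k.eq_zero_or_pos with rfl | hk
    · simp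
    have h2 := cl_of_dvd hp ((dvd_pow_self p hk.ne').trans hd)
    have h3 : ∀ {a}, p ^ k ∣ a → p ∣ a := (dvd_pow_self p hk.ne').trans
    rcases h.one hp hd with h4 | ⟨i, h4⟩
    · exact absurd ((h2.of_O1 (.inl dvd_rfl) (h3 h4)).resolve_left fun e =>
        absurd (cl3.eq (Dvd.dvd.trans (by norm_num) e)) (by decide)).1 (by decide)
    rcases cases5 i with rfl | ⟨t, rfl⟩
    · exact absurd (h2.eq (j := 4) (h3 h4)) (by decide)
    by_cases e : t = 0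
    · subst e; exact h4
    exact absurd ((Nat.prime_dvd_prime_iff_eq hp Nat.prime_two).1 (dvd_two ⟨m', rfl⟩ h2.2.2
      ((h3 (DD_cast t ▸ h4)).trans (D_dvd_cube m e)))) h2.2.1
  have h2 := gp (YY_dvd (m := m') 0) h1
  obtain ⟨s, Q, -, -, hq, -, e0, -⟩ := relY m'
  have h3 := Nat.gcd_le_left (2 * m + 1) (show 0 < 2 * m' + 1 by omega)
  have h4 := Nat.gcd_pos_of_pos_left (2 * m + 1) (show 0 < 2 * m' + 1 by omega)
  refine Nat.gcd_eq_left_iff_dvd.1 (h3.antisymm (not_lt.1 fun h5 => ?_))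
  have h6 := Nat.pow_le_pow_right three_pos (Nat.succ_le_of_lt h5)
  have := Nat.le_of_dvd (Nat.sub_pos_of_lt (Nat.one_lt_pow h4.ne' (by norm_num))) h2
  rw [pow_succ] at h6
  omega

end Cfsg.Agent.RR
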